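import Cfsg.Agent.H290.Wei.TopElt

/-!
# S3938, `E₇(q)`: elements of `PSU_4(Q)` and `PSU_9(2)` (helper154)

* `elt_psu4` : `PSU_4(Q)` has elements of order `N`, `N` odd dividing `Q ^ 3 + 1`;
* `elt86` : `PSU_9(2)` has an element of order 86.
-/

set_option autoImplicit false

namespace Cfsg.Agent.H154.Wei

open Matrix Cfsg Cfsg.Agent.OrdDiv Cfsg.Agent.H436 Cfsg.Agent.H186 Cfsg.Agent.H103.PGUUpper Cfsg.Agent.H72.AdjPSU Cfsg.Agent.ClassicalGeometry.GUBasic
  Cfsg.Agent.H103.UniBlock Cfsg.Agent.H127 Cfsg.Agent.H290.Wei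

/-- `PSU_4(Q)`, `N ∣ Q ^ 3 + 1` odd -/
theorem elt_psu4 {S : Type*} [Group S] {Q N : ℕ} (h : IsNamed (.psu 4 Q) S) (hodd : Odd N) (hN : N ∣ Q ^ 3 + 1) :
    ∃ g : S, orderOf g = N := by
  obtain ⟨F, _, _, hF, e⟩ := h.real
  refine exists_congr ?_ e
  obtain ⟨p, hp⟩ := CharP.exists F
  have : Fact p.Prime := ⟨CharP.char_is_prime F p⟩
  obtain ⟨j, hj, -⟩ := UnitRoots.exists_eq_pow hF p
  obtain ⟨A, hA, ho⟩ := exists_singer_unitary (p := p) hj hF (m := 3) (by decide)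
  have hq := two_le hF
  have hδ0 : (A : Matrix (Fin 3) (Fin 3) F).det ≠ 0 :=
    ((Matrix.isUnit_iff_isUnit_det _).1 A.isUnit).ne_zero
  set δ : F := (A : Matrix (Fin 3) (Fin 3) F).det with hδ
  have hδ1 : δ ^ (Q + 1) = 1 := det_pow hF hA
  have hB : Uni Q (δ⁻¹ • (1 : Matrix (Fin 1) (Fin 1) F)) := by
    refine ⟨1, isUnit_one, ?_⟩
    rw [st_smul, st_one hF, mul_one, Matrix.smul_mul, Matrix.one_mul, smul_smul, ← pow_succ, inv_pow, hδ1, inv_one,
      one_smul]
  refine exists_order_of_index hF (by norm_num) (ι := Fin 3 ⊕ Fin 1) (finSumFinEquiv (m := 3) (n := 1)).symm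
    (A := fromBlocks (A : Matrix (Fin 3) (Fin 3) F) 0 0 (δ⁻¹ • (1 : Matrix (Fin 1) (Fin 1) F)))
    (uni_fromBlocks (by omega) hA hB) ?_ ?_ N dvd_rfl
  · rw [Matrix.det_fromBlocks_zero₂₁, Matrix.det_smul, Matrix.det_one, Fintype.card_fin, pow_one, mul_one, ← hδ,
      mul_inv_cancel₀ hδ0]
  · intro k c hk
    rw [fromBlocks_pow] at hk
    obtain ⟨h3, h4⟩ := fromBlocks_eq_smul hk
    have h5 : (δ⁻¹) ^ k = c := by
      rw [smul_pow, one_pow] at h4
      have := congrFun (congrFun h4 0) 0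
      simpa using this
    have h6 : δ ^ k = c ^ 3 := by
      have := congrArg Matrix.det h3
      rw [Matrix.det_pow, Matrix.det_smul, Matrix.det_one, Fintype.card_fin, mul_one] at this
      exact this
    have h7 : c ^ 4 = 1 := by
      rw [pow_succ, ← h6, ← h5, ← mul_pow, mul_inv_cancel₀ hδ0, one_pow]
    have h8 : (A : Matrix (Fin 3) (Fin 3) F) ^ (k * 4) = 1 := by
      rw [pow_mul, h3, smul_pow, one_pow, h7, one_smul]
    have h9 : Q ^ 3 + 1 ∣ k * 4 := by
      rw [← ho]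
      apply orderOf_dvd_of_pow_eq_one
      apply Units.ext
      rw [Units.val_pow_eq_pow_val, h8, Units.val_one]
    have h10 : Nat.Coprime N 4 := Nat.Coprime.pow_right 2 (Nat.coprime_two_right.2 hodd)
    exact h10.dvd_of_dvd_mul_right (hN.trans h9)

/-- `PSU_9(2)` has an element of order 86. -/
theorem elt86 {S : Type*} [Group S] (h : IsNamed (.psu 9 2) S) : ∃ g : S, orderOf g = 86 := by
  obtain ⟨F, _, _, hF, e⟩ := h.real
  refine exists_congr ?_ e
  have hc : CharP F 2 := by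
    obtain ⟨p, hp⟩ := CharP.exists F
    have hpp : p.Prime := CharP.char_is_prime F p
    obtain ⟨n, -, hn⟩ := FiniteField.card F p
    have h1 : p ∣ 2 ^ 2 := by
      rw [← hF, hn]
      exact dvd_pow_self p n.pos.ne'
    have h2 := (Nat.prime_dvd_prime_iff_eq hpp Nat.prime_two).1 (hpp.dvd_of_dvd_pow h1)
    rw [← h2]
    exact hp
  have : Fact (Nat.Prime 2) := ⟨Nat.prime_two⟩
  exact exists_order_of_blocks hF (by norm_num) (hasBlock_odd hF (a := 7) (d := 43) (by decide) (by norm_num)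
    (by norm_num)) (hasBlock_char hF 2) (by norm_num) (by norm_num) (by norm_num) (by norm_num) 86 (by norm_num)

end Cfsg.Agent.H154.Wei
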